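import Cfsg.Agent.H42.PcDefs

set_option autoImplicit false

namespace Cfsg.Agent.H68.PcC2

open Subgroup Cfsg.Agent.H42.Pc

universe u

theorem sqN {G : Type u} [Group G] {T : Subgroup G} (hT : T.Normal) : (Sq T).Normal := by
  refine ⟨fun n hn g => ?_⟩
  induction hn using closure_induction with
  | mem x hx =>
    obtain ⟨w, hw, rfl⟩ := hx
    exact subset_closure ⟨g * w * g⁻¹, hT.conj_mem w hw g, by group⟩
  | one => simp
  | mul x y _ _ hx hy =>
    have : g * (x * y) * g⁻¹ = g * x * g⁻¹ * (g * y * g⁻¹) := by group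
    rw [this]; exact mul_mem hx hy
  | inv x _ hx =>
    have : g * x⁻¹ * g⁻¹ = (g * x * g⁻¹)⁻¹ := by group
    rw [this]; exact inv_mem hx

theorem sqLe {G : Type u} [Group G] (T : Subgroup G) : Sq T ≤ T := by
  refine (closure_le _).2 ?_
  rintro _ ⟨w, hw, rfl⟩
  exact mul_mem hw hw

theorem ab : AbStmt.{u} := by
  intro G _ T U c
  refine ⟨sqN c.nT, sqLe T, fun a ha b hb => ?_⟩
  have : a⁻¹ * (b * a * b⁻¹) = (a * a)⁻¹ * (a * b * (a * b)) * (b * b)⁻¹ := by group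
  rw [this]
  exact mul_mem (mul_mem (inv_mem (c.sq a ha)) (c.sq _ (mul_mem ha hb))) (inv_mem (c.sq b hb))

theorem c2 (a : AStmt.{u}) (b : BStmt.{u}) (n1 : N1Stmt.{u}) (uu : UStmt.{u}) : C2Stmt.{u} := by
  intro G _ _ T cf hc
  obtain ⟨M, nM, pM, hM⟩ := n1 G T cf hc
  obtain ⟨U, hU⟩ := uu G T M cf nM pM hM
  refine ⟨U, cf.nT, ⟨fun y hy g => ?_⟩, pM.to_le fun y hy => hM y ((hU y).1 hy), hU,
    fun y hy => (hU y).2 (mul_mem hy hy),
    fun y hy y' hy' h h' => cf.cc y y' h h' ((hU y).1 hy) ((hU y').1 hy'),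
    fun y hy => a G T cf y ((hU y).1 hy), fun y hy h => b G T cf y h ((hU y).1 hy)⟩
  rw [hU]
  have : g * y * g⁻¹ * (g * y * g⁻¹) = g * (y * y) * g⁻¹ := by group
  rw [this]
  exact cf.nT.conj_mem _ ((hU y).1 hy) g

end Cfsg.Agent.H68.PcC2
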