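import Cfsg.Agent.H42.FvDefs

/-! A semisimple vector with small centraliser gives a commutative normal subgroup. -/

set_option autoImplicit false

namespace Cfsg.Agent.H68.FvSemiC

open Equiv Cfsg.Lie H37 H40 H34 H29 Module H50.E83 Cfsg.Agent.H42.Fv
open scoped Matrix

theorem perm_aux {α : Type*} (σ : Perm α) (r : α) : σ (σ⁻¹ r) = r := by simp

theorem semiC (cen : CenStmt) (ce : CentStmt) (na : Nact2Stmt) (fx : FixHStmt) (fr : FrobStmt) :
    SemiCStmt := by
  intro H hH g n hn hg h hs h0 hΨ hm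
  by_contra hc
  obtain ⟨t, ht, t1, ts, tc⟩ := ce n hn (Psi h) (fun r hr => by
    show al _ h = 0
    rw [al_neg, show al r h = 0 from hr, neg_zero]) hΨ (not_lt.1 hc)
  let Z := P8.H ⊓ Subgroup.centralizer (P8.U (Psi h) : Set GK)
  have key : ∀ m : G0, act (ι m) (act g h) = act g (act (g⁻¹ * ι m * g) h) := fun m => by
    rw [act_mul, act_mul, act_act_inv]
  have z0 : ∀ r, h (Sum.inr r) = 0 := fun r => by by_contra e; exact hs r e
  have cph : ∀ c : K, cp (c • h) = c • h := fun c => funext fun i => by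
    rcases i with i | i
    · rfl
    · exact ((congrArg (c * ·) (z0 i)).trans (mul_zero c)).symm
  have nf : ∀ c : K, NFm (c • h) := fun c r hr =>
    absurd ((congrArg (c * ·) (z0 r)).trans (mul_zero c)) hr
  have A0 : rat g Z = ⊥ := by
    refine hH _ (fun m k => (hm m).2 ⟨1, by rw [one_smul, key, (fx h hs).2 _ k.1]⟩)
      (fun m k a ha => ?_) fun a ha b hb => ι_injective ?_
    · obtain ⟨c, e⟩ := (hm m).1 k
      rw [key, ← map_smul] at e
      replace e := (act_inv_act g _).symm.trans ((congrArg (act g⁻¹) e).trans (act_inv_act g _))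
      have c0 : c ≠ 0 := by
        rintro rfl
        exact h0 (by rw [← act_inv_act (g⁻¹ * ι m * g) h, e, zero_smul, map_zero])
      obtain ⟨u, hu, n', hn', u', hu', e1, e2⟩ := cen _ h _ (one_smul K h ▸ nf 1) (nf c) e
      rw [cph, show cp h = h from one_smul K h ▸ cph 1] at e2
      obtain ⟨_, k1⟩ := na n' hn'
      have k2 : ∀ r ∈ Psi h, (P8.ν n')⁻¹ r ∈ Psi h := fun r hr => by
        have := (k1 h).2.1 ((P8.ν n')⁻¹ r)
        rw [e2, al_smul, perm_aux,
          show al r h = 0 from hr, mul_zero] at this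
        exact this.symm
      have hu1 : u ∈ P8.U (Psi h) := Split.U_sub hu fun r hr =>
        (mul_eq_zero.1 ((al_smul r c h).symm.trans hr.2)).resolve_left c0
      have hu2 : u' ∈ P8.U (Psi h) := Split.U_sub hu' fun r hr => hr.2
      have hz : g⁻¹ * ι a * g ∈ Z := ha
      have e3 : g⁻¹ * ι (m * a * m⁻¹) * g =
          (g⁻¹ * ι m * g) * (g⁻¹ * ι a * g) * (g⁻¹ * ι m * g)⁻¹ := by
        rw [map_mul, map_mul, map_inv]; group
      rw [mem_rat, e3, e1]
      generalize g⁻¹ * ι a * g = z at hz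
      have hz' : n' * z * n'⁻¹ ∈ Z := ⟨Split.conj_mem_H hn' hz.1, fun y hy => by
        have := hz.2 _ (Split.conj_U' hn' k2 hy)
        calc y * (n' * z * n'⁻¹) = n' * (n'⁻¹ * y * n' * z) * n'⁻¹ := by group
          _ = _ := by rw [this]; group⟩
      rw [show u * n' * u' * z * (u * n' * u')⁻¹ = u * (n' * (u' * z * u'⁻¹) * n'⁻¹) * u⁻¹ by group,
        hz.2 _ hu2, mul_inv_cancel_right, hz'.2 _ hu1, mul_inv_cancel_right]
      exact hz'
    · have := H34.Cert.H_comm (C := C8) (F := K) _ ha.1 _ hb.1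
      rw [map_mul, map_mul]
      calc ι a * ι b = g * (g⁻¹ * ι a * g * (g⁻¹ * ι b * g)) * g⁻¹ := by group
        _ = _ := by rw [this]; group
  obtain ⟨m, e⟩ := (fr.2.1 (g * t * g⁻¹)).1 (by
    rw [map_mul, map_mul, map_inv, ← mul_inv_cancel_left g (Ph g), hg]
    conv_rhs => rw [← ts, sg_apply]
    group)
  have e' : g⁻¹ * ι m * g = t := by rw [e]; group
  have : m ∈ rat g Z := by
    rw [mem_rat, e']
    exact ⟨ht, fun y hy => Subgroup.mem_centralizer_singleton_iff.1
      (Split.U_le (K := Subgroup.centralizer {t}) (fun r hr x hx =>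
        Subgroup.mem_centralizer_singleton_iff.2 (tc r hr x hx).symm.eq) hy)⟩
  rw [A0, Subgroup.mem_bot] at this
  exact t1 (by rw [← e', this, map_one, mul_one, inv_mul_cancel])

end Cfsg.Agent.H68.FvSemiC
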