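import Cfsg.Agent.H50.E72Defs

/-! The configuration in the alternating group of degree 13. -/

set_option autoImplicit false
set_option maxRecDepth 100000

namespace Cfsg.Agent.H68.E72A1

open Equiv Equiv.Perm Multiplicative Cfsg.Agent.H50.E72

abbrev S := Perm (Fin 13)
abbrev A := alternatingGroup (Fin 13)

def rot (a : ZMod 3) (p : Fin 13) : Fin 13 :=
  if p = 12 then p else Fin.ofNat 13 (p.1 / 3 * 3 + (p.1 + a.val) % 3)

def blk (p : Fin 13) : Fin 4 := Fin.ofNat 4 (p.1 / 3)

theorem rot_add : ∀ a b p, rot (a + b) p = rot a (rot b p) := by decide +kernel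
theorem rot_blk : ∀ a p, blk (rot a p) = blk p := by decide +kernel
theorem rot_zero : ∀ p, rot 0 p = p := by decide +kernel

def X (e : E4) : S where
  toFun p := rot (e (blk p)) p
  invFun p := rot (-e (blk p)) p
  left_inv p := by simp only [rot_blk, ← rot_add, neg_add_cancel, rot_zero]
  right_inv p := by simp only [rot_blk, ← rot_add, add_neg_cancel, rot_zero]

def X' : Multiplicative E4 →* S := MonoidHom.mk' (fun e => X e.toAdd) fun a b => Equiv.ext fun p => by
  change rot (a.toAdd (blk p) + b.toAdd (blk p)) p = rot (a.toAdd (blk (rot _ p))) (rot _ p)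
  rw [rot_add, rot_blk]

theorem all {P : E4 → Prop} (h : ∀ a b c d, P ![a, b, c, d]) (e : E4) : P e := by
  have : e = ![e 0, e 1, e 2, e 3] := by ext i; fin_cases i <;> rfl
  rw [this]; exact h _ _ _ _

theorem X3 : ∀ e, X e ^ 3 = 1 := all (by decide +kernel)

theorem odd_sign {σ : S} {n : ℕ} (h : σ ^ (2 * n + 1) = 1) : σ ∈ A := by
  have := congrArg sign h
  rwa [map_pow, pow_succ, pow_mul, Int.units_sq, one_pow, one_mul, map_one] at this

def x : Multiplicative E4 →* A := X'.codRestrict _ fun e => odd_sign (n := 1) (X3 e.toAdd)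

theorem cyc (e : E4) : (X e).cycleType = Multiset.replicate (wt4 e) 3 := by
  have : Fact (Nat.Prime 3) := ⟨by norm_num⟩
  have h1 := cycleType_of_pow_prime_eq_one (X3 e)
  have h2 := sum_cycleType (X e)
  have h3 : ∀ e, (X e).support.card = wt4 e * 3 := all (by decide +kernel)
  rw [h1, Multiset.sum_replicate, h3, smul_eq_mul] at h2
  rw [h1, Nat.eq_of_mul_eq_mul_right (by norm_num) h2]

def us : List S := [swap 0 1, swap 3 4, swap 6 7, swap 0 3 * swap 1 4 * swap 2 5,
  swap 0 6 * swap 1 7 * swap 2 8, swap 3 6 * swap 4 7 * swap 5 8]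

theorem cls (e e' : E4) (h : wt4 e = wt4 e') : IsConj (x (ofAdd e)) (x (ofAdd e')) := by
  obtain ⟨c, hc⟩ := isConj_iff.1 (isConj_iff_cycleType_eq.2 ((cyc e).trans (h ▸ (cyc e').symm)))
  rcases Int.units_eq_one_or (sign c) with s | s
  · exact isConj_iff.2 ⟨⟨c, s⟩, Subtype.ext hc⟩
  have k : ∀ e, ∃ u ∈ us, u * X e * u⁻¹ = X e := all (by decide +kernel)
  obtain ⟨u, hu, e1⟩ := k e
  have su : sign u = -1 := by
    simp only [us, List.mem_cons, List.not_mem_nil, or_false] at hu
    rcases hu with rfl | rfl | rfl | rfl | rfl | rfl <;> simp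
  refine isConj_iff.2 ⟨⟨c * u, by simp [s, su]⟩, Subtype.ext ?_⟩
  change c * u * X e * (c * u)⁻¹ = X e'
  rw [← hc, show c * u * X e * (c * u)⁻¹ = c * (u * X e * u⁻¹) * c⁻¹ by group, e1]

def y : A := ⟨swap 6 8 * swap 7 9 * swap 8 9 * swap 9 10 * swap 10 11 * swap 11 12, by simp⟩
def g : A := ⟨swap 7 12 * swap 9 11, by simp⟩
def s : A := ⟨swap 0 3 * swap 1 4 * swap 2 5 * swap 7 11 * swap 8 12 * swap 9 10, by simp⟩

theorem embA1 : EmbA1Stmt := by
  refine ⟨x, y, s, g, ⟨(injective_iff_map_eq_one x).2 fun e h => ?_, cls, ?_, ?_, ?_, ?_, ?_, ?_, ?_,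
    ?_, 1, ?_⟩, ?_, (cyc _).trans (by decide +kernel)⟩
  · have k : ∀ e, X e = 1 → e = 0 := all (by decide +kernel)
    exact k e.toAdd (congrArg Subtype.val h)
  iterate 9 exact Subtype.ext (by decide +kernel)
  · decide +kernel

end Cfsg.Agent.H68.E72A1
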