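import Cfsg.Agent.H6.E82Defs

/-! Eigenvalue multiplicities of the split torus on the simple modules. -/

set_option autoImplicit false

namespace Cfsg.Agent.H68.E82Eigt

open Module Finset Cfsg.Agent.H6.E82

open Classical in
theorem gen {W : Type} [AddCommGroup W] [Module K W] (T : Module.End K W) (s : Finset ℕ)
    (v : ℕ → W) (μ : ℕ → K) (cf : ℕ → Dual K W) (U : Submodule K W) (η : K)
    (hc : ∀ i ∈ s, ∀ j, cf j (v i) = if j = i then 1 else 0)
    (hU : ∀ f, f ∈ U ↔ ∃ c : ℕ → K, f = ∑ j ∈ s, c j • v j) (hT : ∀ j ∈ s, T (v j) = μ j • v j) :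
    finrank K (U ⊓ T.eigenspace η : Submodule K W) = (s.filter fun j => μ j = η).card := by
  have hcf : ∀ (c : ℕ → K), ∀ i ∈ s, cf i (∑ j ∈ s, c j • v j) = c i := fun c i hi => by
    rw [map_sum, sum_eq_single_of_mem i hi fun j hj e => by
      rw [map_smul, hc j hj, if_neg e.symm, smul_zero], map_smul, hc i hi, if_pos rfl, smul_eq_mul,
      mul_one]
  have li : LinearIndependent K fun j : (s.filter fun j => μ j = η) => v j :=
    LinearIndependent.of_pairwise_dual_eq_zero_one _ (fun j => cf j)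
      (fun i j e => (hc _ (mem_filter.1 j.2).1 _).trans (if_neg fun h => e (Subtype.ext h)))
      fun i => by rw [hc _ (mem_filter.1 i.2).1, if_pos rfl]
  rw [← Fintype.card_coe, ← finrank_span_eq_card li]
  refine congrArg (fun X : Submodule K W => finrank K X) ?_
  refine le_antisymm (fun f hf => ?_) (Submodule.span_le.2 ?_)
  · obtain ⟨c, rfl⟩ := (hU f).1 hf.1
    have h2 := Module.End.mem_eigenspace_iff.1 hf.2
    rw [map_sum, smul_sum, sum_congr rfl fun j hj => show T (c j • v j) = (c j * μ j) • v j by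
      rw [map_smul, hT j hj, smul_smul]] at h2
    simp only [smul_smul] at h2
    refine Submodule.sum_mem _ fun j hj => ?_
    by_cases e : μ j = η
    · exact Submodule.smul_mem _ _ (Submodule.subset_span ⟨⟨j, mem_filter.2 ⟨hj, e⟩⟩, rfl⟩)
    · have h3 := congrArg (cf j) h2
      rw [hcf _ j hj, hcf _ j hj, mul_comm] at h3
      rw [(mul_eq_mul_right_iff.1 h3).resolve_left e, zero_smul]
      exact Submodule.zero_mem _
  · rintro _ ⟨⟨j, hj⟩, rfl⟩
    obtain ⟨hj, e⟩ := mem_filter.1 hj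
    refine ⟨(hU _).2 ⟨fun i => if i = j then 1 else 0, by simp [hj]⟩, ?_⟩
    exact Module.End.mem_eigenspace_iff.2 (e ▸ hT j hj)

theorem eigt (par : ParStmt) (mo : MonoStmt) (ma : MonaStmt) : EigtStmt := by
  classical
  intro p r hr e he
  obtain ⟨⟨cf, hcf⟩, h2⟩ := mo p
  have hl : IsPrimitiveRoot (lam p : K) 63 := IsPrimitiveRoot.coe_units_iff.2 (par.2 p).2.2.2.1
  have le : ∀ j ∈ JS r, j ≤ r := fun j hj => Nat.lt_succ_iff.1 (mem_range.1 (mem_filter.1 hj).1)
  rw [dm, gen (reg (t0 p)) (JS r) (mono p r) (fun j => (lam p : K) ^ (r + 61 * j)) cf _ _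
    (fun i hi => hcf r hr i (le i hi)) (h2 r hr).1 fun j hj => (ma p r hr j (le j hj)).2.1 _ _]
  refine congrArg card (filter_congr fun j _ => ?_)
  rw [← pow_mod_orderOf, ← hl.eq_orderOf]
  exact ⟨hl.pow_inj (Nat.mod_lt _ (by decide)) he, congrArg _⟩

end Cfsg.Agent.H68.E82Eigt
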