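import Cfsg.Agent.H6.E82Defs

/-! Rational elements of order seven and nine in the torus of `E₈`. -/

set_option autoImplicit false
set_option maxRecDepth 100000

namespace Cfsg.Agent.H68.E82Z7

open Equiv Cfsg.Lie H37 H40 H34 H29 Cfsg.Agent.H6.E82

noncomputable def N63 : List RN := tabE8.map (rn 63 tabE8)

theorem tab63 : TabN chevE8.rank 63 tabE8 carE8 N63 cn8 un8 :=
  ⟨by decide, rfl, tabN8.2.2.1, tabN8.2.2.2⟩

theorem gen {s : ℕ} (hs : s ∣ 63) (p : ℕ → Bool)
    (h : allAlc [2, 3, 4, 6, 5, 4, 3, 2] s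
      (fun a => Bool.rec true (p (zN s N63 a)) (jointB N63 s 2 a 1 0 [])) = true)
    {f : Rt → ℤ} (hf : IsAdd C8.R f) {w : Perm Rt} (h1 : ∀ r, (f (w r) : ZMod s) = 2 * f r) :
    p (z0 s f) = true := by
  obtain ⟨v, hv, a, h2, -, h4⟩ :=
    hf.alc tabOKE8 (Nat.pos_of_dvd_of_pos hs (by decide)) (by decide) _ thE8 h
  rw [ratB_of tabOKE8 tab63 hs h4 (hf.comp hv) (w := v⁻¹ * w * v) fun r => by simp [h1],
    h4.zN_eq tabOKE8 tab63 hs (hf.comp hv)] at h2
  rw [← z0_congr (f := f) v fun r => Iff.rfl] at h2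
  exact h2

theorem c7 : allAlc [2, 3, 4, 6, 5, 4, 3, 2] 7 (fun a => Bool.rec true
    ((fun n => n == 240 || n == 72 || n == 30) (zN 7 N63 a)) (jointB N63 7 2 a 1 0 [])) = true := by
  decide +kernel

theorem c9 : allAlc [2, 3, 4, 6, 5, 4, 3, 2] 9 (fun a => Bool.rec true
    ((fun n => n != 30 && n != 24 && n != 18) (zN 9 N63 a)) (jointB N63 9 2 a 1 0 [])) = true := by
  decide +kernel

theorem z7 : Z7Stmt := fun f hf w _ h => by
  simpa [or_assoc] using gen (by decide) (fun n => n == 240 || n == 72 || n == 30) c7 hf h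

theorem z9 : Z9Stmt := fun f hf w _ h => by
  simpa [and_assoc] using gen (by decide) (fun n => n != 30 && n != 24 && n != 18) c9 hf h

end Cfsg.Agent.H68.E82Z7
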