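import Mathlib
import Cfsg.Agent.H50.E83Defs

/-! The pieces `Rep2Stmt` and `UniqStmt`: linear algebra on skew `16 × 16` matrices. -/

set_option autoImplicit false

namespace Cfsg.Agent.H68.E83

open Cfsg.Agent.H50.E83 Matrix

theorem third (a i : Fin 16) : ∃ b : Fin 16, b ≠ a ∧ b ≠ i := by
  revert a i; decide

/-- The elementary skew matrix. -/
noncomputable def sk (a b : Fin 16) : M16 := Matrix.single a b 1 - Matrix.single b a 1

theorem sk_skew (a b : Fin 16) : (sk a b)ᵀ = -sk a b := by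
  simp [sk, Matrix.transpose_sub, Matrix.transpose_single]

theorem mul_sk (N : M16) (a b i j : Fin 16) :
    (N * sk a b) i j = (if j = b then N i a else 0) - (if j = a then N i b else 0) := by
  simp only [sk, Matrix.mul_sub, Matrix.sub_apply]
  congr 1
  · split_ifs with h
    · subst h; simp
    · exact Matrix.mul_single_apply_of_ne _ _ _ _ _ h _
  · split_ifs with h
    · subst h; simp
    · exact Matrix.mul_single_apply_of_ne _ _ _ _ _ h _

theorem sk_mul (N : M16) (a b i j : Fin 16) :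
    (sk a b * N) i j = (if i = a then N b j else 0) - (if i = b then N a j else 0) := by
  simp only [sk, Matrix.sub_mul, Matrix.sub_apply]
  congr 1
  · split_ifs with h
    · subst h; simp
    · exact Matrix.single_mul_apply_of_ne _ _ _ _ _ h _
  · split_ifs with h
    · subst h; simp
    · exact Matrix.single_mul_apply_of_ne _ _ _ _ _ h _

theorem scalar_of_intertw (N N' : M16) (h : ∀ Y : M16, Yᵀ = -Y → N * Y = Y * N') :
    ∃ c : K, N = c • (1 : M16) := by
  have key : ∀ a b i j, (if j = b then N i a else 0) - (if j = a then N i b else 0) =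
      (if i = a then N' b j else 0) - (if i = b then N' a j else 0) := fun a b i j => by
    rw [← mul_sk, ← sk_mul, h _ (sk_skew a b)]
  have off : ∀ i a, i ≠ a → N i a = 0 := fun i a hia => by
    obtain ⟨b, hb, hb'⟩ := third a i
    have := key a b i b
    simpa [hb, hia, hb'.symm] using this
  have dg : ∀ a b, b ≠ a → N a a = N' b b := fun a b hb => by
    have := key a b a b
    simpa [hb, hb.symm] using this
  refine ⟨N 0 0, ?_⟩
  ext i j
  by_cases hij : i = j
  · subst hij
    obtain ⟨b, hb, hb'⟩ := third i 0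
    simp [dg i b hb, dg 0 b hb']
  · simp [off i j hij, Matrix.one_apply_ne hij]

theorem J16_transpose : J16ᵀ = J16 := by
  ext a b
  simp only [J16, Matrix.transpose_apply, Matrix.of_apply]
  by_cases h : b = a.rev
  · subst h; simp
  · rw [if_neg h, if_neg]
    rintro rfl
    exact h (by simp)

theorem J16_mul_self : J16 * J16 = 1 := by
  ext a b
  simp only [J16, Matrix.mul_apply, Matrix.of_apply, ite_mul, one_mul, zero_mul,
    Finset.sum_ite_eq', Finset.mem_univ, if_true, Fin.rev_rev, Matrix.one_apply]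
  by_cases h : a = b
  · simp [h]
  · simp [h, Ne.symm h]

theorem mul_J_J (X : M16) : X * J16 * J16 = X := by
  rw [Matrix.mul_assoc, J16_mul_self, Matrix.mul_one]

theorem J_J_mul (X : M16) : J16 * (J16 * X) = X := by
  rw [← Matrix.mul_assoc, J16_mul_self, Matrix.one_mul]

theorem rep2 : Rep2Stmt := by
  intro z ρ ⟨h1, h2, h3, h4⟩
  have hsk : ∀ Y : M16, Yᵀ = -Y → (Y * J16)ᵀ * J16 = -(J16 * (Y * J16)) := fun Y hY => by
    rw [Matrix.transpose_mul, J16_transpose, hY]
    simp [Matrix.mul_assoc]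
  refine ⟨(LinearMap.mulRight K J16).comp ρ, ?_, ?_, ?_, ?_⟩
  · intro v
    show (ρ v * J16)ᵀ = -(ρ v * J16)
    rw [Matrix.transpose_mul, J16_transpose, ← mul_J_J (J16 * (ρ v)ᵀ), Matrix.mul_assoc J16, h1,
      Matrix.mul_neg, J_J_mul, Matrix.neg_mul]
  · intro Y hY
    obtain ⟨v, hv, e⟩ := h2 _ (hsk Y hY)
    refine ⟨v, hv, ?_⟩
    show ρ v * J16 = Y
    rw [e, mul_J_J]
  · intro v hv e
    refine h3 v hv ?_
    have e' : ρ v * J16 = 0 := e
    rw [← mul_J_J (ρ v), e', Matrix.zero_mul]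
  · intro g hg
    obtain ⟨A, hA⟩ := h4 g hg
    set M : M16 := A.1ᵀ * J16 * A.1 with hM
    have hX : ∀ v, (ρ v)ᵀ * M = -(M * ρ v) := fun v => by
      calc (ρ v)ᵀ * M = (A.1 * ρ v)ᵀ * J16 * A.1 := by
            rw [hM, Matrix.transpose_mul]; simp only [Matrix.mul_assoc]
        _ = A.1ᵀ * ((ρ (act g v))ᵀ * J16) * A.1 := by
            rw [hA, Matrix.transpose_mul]; simp only [Matrix.mul_assoc]
        _ = -(A.1ᵀ * J16 * (ρ (act g v) * A.1)) := by
            rw [h1]; simp only [Matrix.mul_assoc, Matrix.mul_neg, Matrix.neg_mul]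
        _ = -(M * ρ v) := by rw [← hA, hM]; simp only [Matrix.mul_assoc]
    obtain ⟨c, hc⟩ := scalar_of_intertw (J16 * M) (M * J16) fun Y hY => by
      obtain ⟨v, -, e⟩ := h2 _ (hsk Y hY)
      have e1 := hX v
      rw [e, Matrix.transpose_mul, J16_transpose, hY] at e1
      have e2 : J16 * Y * M = M * (Y * J16) := by
        simpa [Matrix.mul_neg, Matrix.neg_mul] using e1
      calc J16 * M * Y = J16 * (M * (Y * J16)) * J16 := by
            simp only [Matrix.mul_assoc, J16_mul_self, Matrix.mul_one]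
        _ = Y * (M * J16) := by
            rw [← e2]; simp only [Matrix.mul_assoc, J_J_mul]
    have hMc : M = c • J16 := by
      rw [← J_J_mul M, hc, Matrix.mul_smul, Matrix.mul_one]
    have hc0 : c ≠ 0 := by
      rintro rfl
      have e0 : A.1ᵀ * J16 * A.1 = 0 := by rw [← hM, hMc, zero_smul]
      have e3 : ((A⁻¹ : GL (Fin 16) K).1)ᵀ * (A.1)ᵀ = 1 := by
        rw [← Matrix.transpose_mul, Units.mul_inv, Matrix.transpose_one]
      have e4 : J16 = ((A⁻¹ : GL (Fin 16) K).1)ᵀ * (A.1ᵀ * J16 * A.1) * (A⁻¹ : GL (Fin 16) K).1 := by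
        calc J16 = (((A⁻¹ : GL (Fin 16) K).1)ᵀ * (A.1)ᵀ) * J16 * (A.1 * (A⁻¹ : GL (Fin 16) K).1) := by
              rw [e3, Units.mul_inv, Matrix.one_mul, Matrix.mul_one]
          _ = _ := by simp only [Matrix.mul_assoc]
      rw [e0, Matrix.mul_zero, Matrix.zero_mul] at e4
      have e5 := J16_mul_self
      rw [e4, Matrix.zero_mul] at e5
      exact zero_ne_one e5
    obtain ⟨m, hm⟩ := IsAlgClosed.exists_eq_mul_self c⁻¹
    have hB : (m • A.1)ᵀ * J16 * (m • A.1) = J16 := by
      rw [Matrix.transpose_smul, Matrix.smul_mul, Matrix.smul_mul, Matrix.mul_smul, ← hM, hMc,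
        smul_smul, smul_smul, ← hm, inv_mul_cancel₀ hc0, one_smul]
    refine ⟨m • A.1, hB, fun v _ => ?_⟩
    have e1 : (J16 * (m • A.1)ᵀ * J16) * (m • A.1) = 1 := by
      rw [Matrix.mul_assoc J16, Matrix.mul_assoc J16, hB, J16_mul_self]
    have e2 : (m • A.1) * (J16 * (m • A.1)ᵀ * J16) = 1 := mul_eq_one_comm.1 e1
    have e3 : (m • A.1) * J16 * (m • A.1)ᵀ = J16 := by
      rw [← mul_J_J ((m • A.1) * J16 * (m • A.1)ᵀ)]
      have : (m • A.1) * J16 * (m • A.1)ᵀ * J16 = 1 := by
        rw [← e2]; simp only [Matrix.mul_assoc]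
      rw [this, Matrix.one_mul]
    have e4 : (m • A.1) * ρ v = ρ (act g v) * (m • A.1) := by
      rw [Matrix.smul_mul, Matrix.mul_smul, hA]
    show ρ (act g v) * J16 = (m • A.1) * (ρ v * J16) * (m • A.1)ᵀ
    rw [← Matrix.mul_assoc, e4, Matrix.mul_assoc, Matrix.mul_assoc, ← Matrix.mul_assoc (m • A.1), e3]

theorem uniq : UniqStmt := by
  intro A B hA h
  obtain ⟨U, rfl⟩ := hA
  set C : M16 := (U⁻¹ : (M16)ˣ).1 * B with hC
  have hB : B = U.1 * C := by rw [hC, ← Matrix.mul_assoc, Units.mul_inv, Matrix.one_mul]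
  have hCY : ∀ Y : M16, Yᵀ = -Y → C * Y * Cᵀ = Y := fun Y hY => by
    have e := h Y hY
    have e2 : C * Y * Cᵀ = (U⁻¹ : (M16)ˣ).1 * (B * Y * Bᵀ) * ((U⁻¹ : (M16)ˣ).1)ᵀ := by
      rw [hC, Matrix.transpose_mul]; simp only [Matrix.mul_assoc]
    rw [e2, ← e]
    have e3 : (U.1)ᵀ * ((U⁻¹ : (M16)ˣ).1)ᵀ = 1 := by
      rw [← Matrix.transpose_mul, Units.inv_mul, Matrix.transpose_one]
    calc (U⁻¹ : (M16)ˣ).1 * (U.1 * Y * (U.1)ᵀ) * ((U⁻¹ : (M16)ˣ).1)ᵀ
        = ((U⁻¹ : (M16)ˣ).1 * U.1) * Y * ((U.1)ᵀ * ((U⁻¹ : (M16)ˣ).1)ᵀ) := by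
          simp only [Matrix.mul_assoc]
      _ = Y := by rw [e3, Units.inv_mul, Matrix.one_mul, Matrix.mul_one]
  have key : ∀ i j a b, C i a * C j b - C i b * C j a = sk a b i j := fun i j a b => by
    rw [← hCY _ (sk_skew a b), Matrix.mul_apply]
    simp only [mul_sk, Matrix.transpose_apply, sub_mul, ite_mul, zero_mul, Finset.sum_sub_distrib,
      Finset.sum_ite_eq', Finset.mem_univ, if_true]
  have skv : ∀ i j a b, sk a b i j = (if a = i ∧ b = j then 1 else 0) - (if b = i ∧ a = j then 1 else 0) :=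
    fun i j a b => by simp [sk, Matrix.single_apply]
  have off : ∀ i k, i ≠ k → C i k = 0 := fun i k hik => by
    obtain ⟨j, hj, hj'⟩ := third i k
    have d1 := key i j i j
    have d2 := key i j i k
    have d3 := key i j j k
    rw [skv] at d1 d2 d3
    simp only [hj, hj.symm, hj'.symm, hik.symm, and_self, and_false, if_true, if_false,
      sub_zero, and_true] at d1 d2 d3
    linear_combination (-(C i k)) * d1 - C i i * d3 + C i j * d2
  have dg : ∀ i j, j ≠ i → C i i * C j j = 1 := fun i j hj => by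
    have d1 := key i j i j
    rw [skv, off i j hj.symm] at d1
    simpa [hj, hj.symm] using d1
  have dg2 : ∀ i, C i i = C 0 0 := fun i => by
    obtain ⟨j, hj, hj'⟩ := third i 0
    have a1 := dg i j hj
    have a2 := dg 0 j hj'
    linear_combination (-(C i i)) * a2 + C 0 0 * a1
  have sq : C 0 0 * C 0 0 = 1 := by
    have := dg 0 1 (by decide)
    rwa [dg2 1] at this
  have hCs : C = C 0 0 • (1 : M16) := by
    ext i j
    by_cases hij : i = j
    · subst hij; simp [dg2 i]
    · simp [off i j hij, Matrix.one_apply_ne hij]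
  rcases mul_self_eq_one_iff.1 sq with e | e
  · left; rw [hB, hCs, e]; simp
  · right; rw [hB, hCs, e]; simp

end Cfsg.Agent.H68.E83
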