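import Cfsg.Agent.H78.G40B

/-! Explicit identities in `L₄(3)`. -/

set_option autoImplicit false
set_option maxRecDepth 100000

namespace Cfsg.Agent.H68.G40F1c

open Subgroup Matrix Cfsg.Agent.H46.L40 Cfsg.Agent.H78.G40

section
variable {G : Type} [Group G]

theorem nrm [Finite G] {i j g : G} (a b : G) (ha : a ∈ Subgroup.closure ({i, j} : Set G))
    (hb : b ∈ Subgroup.closure ({i, j} : Set G)) (e1 : g * i = a * g) (e2 : g * j = b * g) :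
    g ∈ normalizer (Subgroup.closure ({i, j} : Set G) : Set G) :=
  mem_normalizer_fintype fun _ hx => (closure_le ((Subgroup.closure ({i, j} : Set G)).comap
    (MulAut.conj g).toMonoidHom)).2 (fun x hx => by
      show g * x * g⁻¹ ∈ Subgroup.closure _
      rcases hx with rfl | rfl
      · rwa [e1, mul_inv_cancel_right]
      · rwa [e2, mul_inv_cancel_right]) hx

theorem cen {i j g : G} (h1 : i * g = g * i) (h2 : j * g = g * j) :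
    g ∈ centralizer (Subgroup.closure ({i, j} : Set G) : Set G) := by
  rw [centralizer_closure]
  rintro x (rfl | rfl)
  exacts [h1, h2]

theorem mz {z a y : G} : Mz z (a * y * a⁻¹ * y⁻¹) ↔ a * y = y * a ∨ a * y = z * y * a := by
  simp only [Mz, mul_inv_eq_iff_eq_mul, one_mul]

theorem m1 {i j : G} : i ∈ Subgroup.closure ({i, j} : Set G) := subset_closure (by simp)
theorem m2 {i j : G} : j ∈ Subgroup.closure ({i, j} : Set G) := subset_closure (by simp)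

end

abbrev M4 := Matrix (Fin 4) (Fin 4) (ZMod 3)

def mm (A B : M4) : M4 :=
  of fun i j => A i 0 * B 0 j + A i 1 * B 1 j + A i 2 * B 2 j + A i 3 * B 3 j

theorem mm_eq (A B : M4) : A * B = mm A B := by
  ext i j; simp only [mm, mul_apply, Fin.sum_univ_four, of_apply]

theorem le_L {i j : SL4} {L : List M4} (h1 : ∃ y ∈ L, 1 = y)
    (h : ∀ g ∈ [i.1, j.1], g * (g * (g * g)) = 1 ∧ ∀ x ∈ L, ∃ y ∈ L, g * x = y) {y : X1}
    (hy : y ∈ Subgroup.closure ({mk1 i, mk1 j} : Set X1)) : ∃ Y : SL4, mk1 Y = y ∧ Y.1 ∈ L := by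
  have k : ∀ g ∈ ({mk1 i, mk1 j} : Set X1), ∃ g', mk1 g' = g ∧ g' * (g' * (g' * g')) = 1 ∧
      ∀ x : SL4, x.1 ∈ L → (g' * x).1 ∈ L := by
    rintro _ (rfl | rfl)
    · obtain ⟨a, b⟩ := h i.1 (by simp)
      exact ⟨i, rfl, Subtype.ext a, fun x hx => let ⟨_, c, d⟩ := b _ hx; by rwa [← d] at c⟩
    · obtain ⟨a, b⟩ := h j.1 (by simp)
      exact ⟨j, rfl, Subtype.ext a, fun x hx => let ⟨_, c, d⟩ := b _ hx; by rwa [← d] at c⟩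
  induction hy using closure_induction_left with
  | one => obtain ⟨_, c, rfl⟩ := h1; exact ⟨1, map_one _, c⟩
  | mul_left g hg x _ ih =>
    obtain ⟨g, rfl, -, b⟩ := k g hg
    obtain ⟨x, rfl, c⟩ := ih
    exact ⟨g * x, map_mul .., b x c⟩
  | inv_mul_cancel g hg x _ ih =>
    obtain ⟨g, rfl, a, b⟩ := k g hg
    obtain ⟨x, rfl, c⟩ := ih
    refine ⟨g * (g * (g * x)), ?_, b _ (b _ (b _ c))⟩
    rw [← map_inv, ← map_mul, ← eq_inv_of_mul_eq_one_right a, mul_assoc, mul_assoc]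

def PM (a b : M4) : Prop := a = b ∨ a = -b

def eqb (a b : M4) : Bool :=
  (List.finRange 4).all fun i => (List.finRange 4).all fun j => (a i j).val == (b i j).val

theorem eqb_iff (a b : M4) : a = b ↔ eqb a b = true := by
  simp only [eqb, List.all_eq_true, List.mem_finRange, true_imp_iff, beq_iff_eq,
    (ZMod.val_injective 3).eq_iff]
  exact Matrix.ext_iff.symm

theorem cm (a b : SL4) : (a * b).1 = a.1 * b.1 := rfl
theorem co : (1 : SL4).1 = 1 := rfl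

macro "mdec" : tactic => `(tactic| (
  simp only [PM, cm, co, mm_eq, eqb_iff]
  decide +kernel))

theorem fix {i j k z : SL4} {L : List M4} (h1 : ∃ y ∈ L, 1 = y)
    (h : ∀ g ∈ [i.1, j.1], g * (g * (g * g)) = 1 ∧ ∀ x ∈ L, ∃ y ∈ L, g * x = y)
    (h2 : ∀ y ∈ L, PM (k.1 * y) (y * k.1) ∨ PM (k.1 * y) (z.1 * y * k.1) → PM y 1 ∨ PM y z.1) :
    ∀ y ∈ Subgroup.closure ({mk1 i, mk1 j} : Set X1),
      Mz (mk1 z) (mk1 k * y * (mk1 k)⁻¹ * y⁻¹) → Mz (mk1 z) y := fun y hy e => by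
  obtain ⟨Y, rfl, hY⟩ := le_L h1 h hy
  rw [mz] at e
  simp only [← map_mul, mk1_eq] at e
  rw [Mz, ← map_one mk1, mk1_eq, mk1_eq]
  exact h2 _ hY e

def La : List M4 := [!![1, 0, 0, 0; 0, 1, 0, 0; 0, 0, 1, 0; 0, 0, 0, 1],
  !![0, 1, 0, 0; 2, 0, 0, 0; 0, 0, 1, 0; 0, 0, 0, 1], !![1, 1, 0, 0; 1, 2, 0, 0; 0, 0, 1, 0; 0, 0, 0, 1],
  !![2, 0, 0, 0; 0, 2, 0, 0; 0, 0, 1, 0; 0, 0, 0, 1], !![1, 2, 0, 0; 2, 2, 0, 0; 0, 0, 1, 0; 0, 0, 0, 1],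
  !![2, 1, 0, 0; 1, 1, 0, 0; 0, 0, 1, 0; 0, 0, 0, 1], !![0, 2, 0, 0; 1, 0, 0, 0; 0, 0, 1, 0; 0, 0, 0, 1],
  !![2, 2, 0, 0; 2, 1, 0, 0; 0, 0, 1, 0; 0, 0, 0, 1]]

def Lb : List M4 := [!![1, 0, 0, 0; 0, 1, 0, 0; 0, 0, 1, 0; 0, 0, 0, 1],
  !![1, 0, 0, 0; 0, 1, 0, 0; 0, 0, 0, 1; 0, 0, 2, 0], !![1, 0, 0, 0; 0, 1, 0, 0; 0, 0, 1, 1; 0, 0, 1, 2],
  !![1, 0, 0, 0; 0, 1, 0, 0; 0, 0, 2, 0; 0, 0, 0, 2], !![1, 0, 0, 0; 0, 1, 0, 0; 0, 0, 1, 2; 0, 0, 2, 2],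
  !![1, 0, 0, 0; 0, 1, 0, 0; 0, 0, 2, 1; 0, 0, 1, 1], !![1, 0, 0, 0; 0, 1, 0, 0; 0, 0, 0, 2; 0, 0, 1, 0],
  !![1, 0, 0, 0; 0, 1, 0, 0; 0, 0, 2, 2; 0, 0, 2, 1]]

def s : SL4 := ⟨!![1, 0, 0, 0; 0, 1, 0, 0; 0, 0, 0, 1; 0, 0, 2, 0], by decide +kernel⟩
def q2 : SL4 := ⟨!![1, 0, 0, 0; 0, 1, 0, 0; 0, 0, 1, 1; 0, 0, 1, 2], by decide +kernel⟩
def k2 : SL4 := ⟨!![1, 0, 0, 0; 0, 1, 0, 0; 0, 0, 1, 1; 0, 0, 0, 1], by decide +kernel⟩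
def sw : SL4 := ⟨!![0, 0, 1, 0; 0, 0, 0, 1; 1, 0, 0, 0; 0, 1, 0, 0], by decide +kernel⟩
def v2 : SL4 := ⟨!![0, 0, 1, 1; 0, 0, 2, 1; 2, 1, 0, 0; 2, 2, 0, 0], by decide +kernel⟩
def u : SL4 := ⟨!![0, 1, 0, 0; 2, 0, 0, 0; 0, 0, 0, 1; 0, 0, 2, 0], by decide +kernel⟩
def y1 : SL4 := ⟨!![0, 0, 2, 1; 0, 0, 2, 2; 1, 2, 0, 0; 1, 1, 0, 0], by decide +kernel⟩
def y2 : SL4 := ⟨!![0, 0, 2, 0; 0, 0, 0, 2; 0, 2, 0, 0; 1, 0, 0, 0], by decide +kernel⟩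
def c1 : SL4 := ⟨!![0, 1, 1, 0; 2, 0, 0, 1; 0, 2, 1, 0; 1, 0, 0, 1], by decide +kernel⟩
def c2 : SL4 := ⟨!![0, 1, 2, 0; 1, 2, 2, 2; 2, 2, 0, 2; 1, 0, 2, 1], by decide +kernel⟩

theorem he (m : S3) : e1 m = mk1 (E1 m) := rfl
theorem hs : σ1 = mk1 s := rfl
theorem hd : dd1 = ⟨mk1 q2, mk1 k2, mk1 sw, mk1 v2, mk1 u, mk1 y1, mk1 y2⟩ := rfl

theorem p3 {a : SL4} (h : PM (a * (a * a)).1 (1 : SL4).1) : mk1 a ^ 3 = 1 := by
  rw [pow_three, ← map_mul, ← map_mul, ← map_one mk1, mk1_eq]; exact h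

attribute [local instance 100000] List.decidableBAll List.decidableBEx

theorem f1c : F1cS := by
  have m : ∀ x ∈ ({e1 w0, e1 q0, σ1, dd1.q2, dd1.sw, e1 a0} : Set X1), x ∈ Tq e1 σ1 dd1 :=
    fun x hx => subset_closure hx
  have e1' : dd1.y1 = e1 q0 * dd1.q2 * dd1.sw * e1 a0 := by
    simp only [he, hd, ← map_mul, mk1_eq]; mdec
  have e2' : dd1.y2 = σ1 * dd1.sw := by simp only [hs, hd, ← map_mul, mk1_eq]; mdec
  refine ⟨isConj_iff.2 ⟨mk1 c1, mul_inv_eq_iff_eq_mul.2 ?_⟩,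
    isConj_iff.2 ⟨mk1 c2, mul_inv_eq_iff_eq_mul.2 ?_⟩,
    e1' ▸ mul_mem (mul_mem (mul_mem (m _ (by simp only [Set.mem_insert_iff, true_or, or_true]))
      (m _ (by simp only [Set.mem_insert_iff, true_or, or_true])))
      (m _ (by simp only [Set.mem_insert_iff, true_or, or_true])))
      (m _ (by simp only [Set.mem_insert_iff, Set.mem_singleton_iff, or_true])),
    e2' ▸ mul_mem (m _ (by simp only [Set.mem_insert_iff, true_or, or_true]))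
      (m _ (by simp only [Set.mem_insert_iff, true_or, or_true])), ?_, ?_, mt mz.1 ?_, ?_, ?_,
    p3 (a := E1 x12) (by mdec), p3 (a := k2) (by mdec),
    nrm _ _ (mul_mem (mul_mem m1 m1) m2) (mul_mem m2 m1) ?_ ?_, cen ?_ ?_, cen ?_ ?_,
    nrm _ _ (mul_mem (mul_mem m1 m1) m2) (mul_mem m2 m1) ?_ ?_,
    fix (i := E1 w0) (j := E1 q0) (k := E1 x12) (z := E1 z0) (L := La) (by mdec)
      (by mdec) (by mdec),
    fix (i := s) (j := q2) (k := k2) (z := E1 z0) (L := Lb) (by mdec)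
      (by mdec) (by mdec),
    nrm _ _ (mul_mem (mul_mem m1 m1) m1) (mul_mem m1 m2) ?_ ?_,
    nrm _ _ (mul_mem (mul_mem m1 m1) m1) (mul_mem m1 m2) ?_ ?_,
    ⟨e1 q0, m2, mt mz.1 ?_⟩, ⟨dd1.q2, m2, mt mz.1 ?_⟩⟩
  all_goals
    simp only [he, hs, hd, ← map_mul, mk1_eq]
    mdec

end Cfsg.Agent.H68.G40F1c
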