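import Cfsg.Agent.H98.GbG

/-! Counting choice functions fixed by the elements of an abelian group. -/

set_option autoImplicit false

namespace Cfsg.Agent.H68.GbNumg

open Cfsg.Agent.H98.GB MulAction Finset

theorem sum_quot {A : Type} [Group A] [Fintype A] (K : Subgroup A) [Fintype (A ⧸ K)] (g : A → ℕ)
    (hg : ∀ a, ∀ k ∈ K, g (a * k) = g a) : ∑ ν, g ν = Nat.card K * ∑ c : A ⧸ K, g c.out := by
  classical
  have hb : Function.Bijective fun p : (A ⧸ K) × K => p.1.out * (p.2 : A) := by
    refine ⟨fun p q h => ?_, fun ν => ⟨(ν, ⟨(ν : A ⧸ K).out⁻¹ * ν,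
      QuotientGroup.eq.1 (QuotientGroup.out_eq' _)⟩), by simp⟩⟩
    have h1 : p.1 = q.1 := by
      have := congrArg (QuotientGroup.mk (s := K)) h
      simpa only [QuotientGroup.mk_mul_of_mem _ p.2.2, QuotientGroup.mk_mul_of_mem _ q.2.2,
        QuotientGroup.out_eq'] using this
    refine Prod.ext h1 (Subtype.ext ?_)
    simp only [h1] at h
    exact mul_left_cancel h
  rw [← hb.sum_comp g, Fintype.sum_prod_type, mul_sum]
  refine sum_congr rfl fun c _ => ?_
  rw [sum_congr rfl fun (k : K) _ => hg c.out k k.2]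
  simp

theorem sum_prod_le {A ι : Type} [Group A] [Fintype A] [Fintype ι] (K : ι → Subgroup A)
    [∀ o, Fintype (A ⧸ K o)] (g : ι → A → ℕ) (hg : ∀ o a, ∀ k ∈ K o, g o (a * k) = g o a) :
    ∑ ν, ∏ o, g o ν ≤ Nat.card (⨅ o, K o : Subgroup A) * ∏ o, ∑ c : A ⧸ K o, g o c.out := by
  classical
  have := Fintype.ofFinite (A ⧸ (⨅ o, K o : Subgroup A))
  rw [sum_quot (⨅ o, K o) (fun ν => ∏ o, g o ν) fun a k hk =>
    prod_congr rfl fun o _ => hg o a k (Subgroup.mem_iInf.1 hk o), prod_univ_sum]
  refine Nat.mul_le_mul_left _ ?_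
  let φ : (A ⧸ (⨅ o, K o : Subgroup A)) → ∀ o, A ⧸ K o := fun c o => c.out
  have hφ : Function.Injective φ := fun c d h => by
    rw [← QuotientGroup.out_eq' c, ← QuotientGroup.out_eq' d, QuotientGroup.eq, Subgroup.mem_iInf]
    exact fun o => QuotientGroup.eq.1 (congrFun h o)
  calc _ = ∑ c, ∏ o, g o (φ c o).out := sum_congr rfl fun c _ => prod_congr rfl fun o _ => by
        have := hg o (φ c o).out _ (QuotientGroup.eq.1 (QuotientGroup.out_eq' (φ c o)))
        rwa [mul_inv_cancel_left] at this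
    _ = ∑ x ∈ univ.map ⟨φ, hφ⟩, ∏ o, g o (x o).out := by rw [sum_map]; rfl
    _ ≤ _ := sum_le_sum_of_subset (by simp)

theorem stab_mem {A I : Type} [CommGroup A] [MulAction A I] {i j : I} (h : j ∈ orbit A i) (ν : A) :
    ν ∈ stabilizer A i → ν • j = j := fun hν => by
  obtain ⟨g, rfl⟩ := h
  show ν • g • i = g • i
  rw [smul_comm, show ν • i = i from hν]

open Classical in
theorem fix_le {A I : Type} [CommGroup A] [Fintype A] [Fintype I] [MulAction A I]
    [Fintype (orbitRel.Quotient A I)] (X : I → Finset (Finset ℕ)) (hX : ∀ (g : A) i, X (g • i) = X i)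
    (h0 : ∀ i, 0 < (X i).card) (ν : A) :
    fixN X ν ≤ ∏ O : orbitRel.Quotient A I, if ν ∈ stabilizer A O.out then
      (X O.out).card ^ Nat.card (orbit A O.out) else
        (X O.out).card ^ (Nat.card (orbit A O.out) / 2) := by
  let R : Finset I := univ.filter fun i =>
    (Quotient.mk (orbitRel (Subgroup.zpowers ν) I) i).out = i
  have h1 : fixN X ν ≤ ∏ r : R, (X r).card := by
    rw [← Fintype.card_piFinset, ← Set.ncard_coe_finset]
    refine Set.ncard_le_ncard_of_injOn (fun f (r : R) => f r) (fun f hf => by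
      simpa using fun r _ => hf.1 r) (fun f hf f' hf' e => funext fun i => ?_)
    have key : ∀ f : I → Finset ℕ, (∀ i, f (ν • i) = f i) → ∀ g ∈ Subgroup.zpowers ν, ∀ i,
        f (g • i) = f i := fun f hf g hg => by
      obtain ⟨n, rfl⟩ := mem_powers_iff_mem_zpowers.2 hg
      induction n with
      | zero => simp
      | succ n ih => intro i; simp only [pow_succ', mul_smul, hf] at ih ⊢; exact ih (by simp) i
    obtain ⟨g, hg⟩ : (Quotient.mk (orbitRel (Subgroup.zpowers ν) I) i).out ∈
      orbit (Subgroup.zpowers ν) i := Quotient.mk_out (s := orbitRel (Subgroup.zpowers ν) I) i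
    have := congrFun e ⟨(Quotient.mk (orbitRel (Subgroup.zpowers ν) I) i).out, by simp [R]⟩
    simp only [← hg] at this
    exact (key f hf.2 g g.2 i).symm.trans (this.trans (key f' hf'.2 g g.2 i))
  refine h1.trans ?_
  rw [prod_coe_sort R fun r => (X r).card,
    ← prod_fiberwise R (Quotient.mk (orbitRel A I)) fun r => (X r).card]
  refine prod_le_prod' fun O _ => ?_
  have hm : ∀ r ∈ R.filter fun r => Quotient.mk (orbitRel A I) r = O, r ∈ orbit A O.out :=
    fun r hr => Quotient.exact ((mem_filter.1 hr).2.trans O.out_eq.symm)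
  rw [prod_congr rfl fun r hr => show (X r).card = (X O.out).card by
    obtain ⟨g, hg⟩ := hm r hr; rw [← hg]; exact congrArg _ (hX g _), prod_const]
  set T := R.filter fun r => Quotient.mk (orbitRel A I) r = O
  rw [Nat.card_coe_set_eq, Set.ncard_eq_toFinset_card']
  split_ifs with h
  · exact Nat.pow_le_pow_right (h0 _) (card_le_card fun r hr => by simpa using hm r hr)
  · refine Nat.pow_le_pow_right (h0 _) ((Nat.le_div_iff_mul_le two_pos).2 ?_)
    have hd : Disjoint T (T.image (ν • ·)) := disjoint_left.2 fun r hr hr' => by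
      obtain ⟨r', hr'', e⟩ := mem_image.1 hr'
      have e1 : Quotient.mk (orbitRel (Subgroup.zpowers ν) I) r = Quotient.mk _ r' :=
        Quotient.sound ⟨⟨ν, Subgroup.mem_zpowers ν⟩, e⟩
      have e2 : r = r' := by
        rw [← (mem_filter.1 (mem_filter.1 hr).1).2, e1, (mem_filter.1 (mem_filter.1 hr'').1).2]
      subst e2
      exact h (stab_mem (mem_orbit_symm.1 (hm r hr)) ν e)
    rw [mul_two]
    nth_rewrite 2 [← card_image_of_injective T (MulAction.injective ν)]
    rw [← card_union_of_disjoint hd]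
    refine card_le_card fun r hr => Set.mem_toFinset.2 ?_
    rcases mem_union.1 hr with hr | hr
    · exact hm r hr
    · obtain ⟨r', hr', rfl⟩ := mem_image.1 hr
      exact mem_orbit_of_mem_orbit ν (hm r' hr')

theorem numg : NUMGStmt := by
  classical
  intro A I _ _ _ _ X K a hX hK hs ha
  by_cases h0 : ∀ i, 0 < (X i).card
  swap
  · obtain ⟨i, hi⟩ := not_forall.1 h0
    refine (sum_eq_zero fun ν _ => ?_).trans_le (Nat.zero_le _)
    rw [fixN, Set.eq_empty_of_forall_notMem (s := {f : I → Finset ℕ | (∀ i, f i ∈ X i) ∧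
      ∀ i, f (ν • i) = f i}) fun f hf => hi (card_pos.2 ⟨_, hf.1 i⟩), Set.ncard_empty]
  have := Fintype.ofFinite (orbitRel.Quotient A I)
  have := fun O : orbitRel.Quotient A I => Fintype.ofFinite (A ⧸ K O.out)
  have hi : (⨅ O : orbitRel.Quotient A I, K O.out) = ⨅ i, K i :=
    le_antisymm (le_iInf fun i => iInf_le_of_le (Quotient.mk _ i) (by
      obtain ⟨g, hg⟩ : (Quotient.mk (orbitRel A I) i).out ∈ orbit A i :=
        Quotient.mk_out (s := orbitRel A I) i
      rw [← hg]; exact (hK g i).le)) (le_iInf fun O => iInf_le _ _)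
  have inv : ∀ (O : orbitRel.Quotient A I) (x y : ℕ) (b : A), ∀ k ∈ K O.out,
      (if b * k ∈ stabilizer A O.out then x else y) = if b ∈ stabilizer A O.out then x else y :=
    fun O x y b k hk => by simp only [Subgroup.mul_mem_cancel_right _ (hs _ hk)]
  refine (sum_le_sum fun ν _ => fix_le X hX h0 ν).trans
    ((sum_prod_le (fun O : orbitRel.Quotient A I => K O.out) _ fun O => inv O _ _).trans ?_)
  rw [hi, finprod_eq_prod_of_fintype]
  refine Nat.mul_le_mul_left _ (prod_le_prod' fun O _ => ?_)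
  refine Nat.le_of_mul_le_mul_left ?_ (Nat.card_pos (α := K O.out))
  refine (sum_quot (K O.out) (fun b => if b ∈ stabilizer A O.out then _ else _)
    (inv O _ _)).symm.trans_le ?_
  rw [sum_ite, sum_const, sum_const, smul_eq_mul, smul_eq_mul]
  have c1 : (univ.filter fun b : A => b ∈ stabilizer A O.out).card =
      Nat.card (stabilizer A O.out) := by
    rw [Nat.card_eq_fintype_card, Fintype.card_subtype]
  have c2 := card_filter_add_card_filter_not (s := univ) fun b : A => b ∈ stabilizer A O.out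
  have c3 := (stabilizer A O.out).card_mul_index
  rw [index_stabilizer, ← Nat.card_coe_set_eq, Nat.card_eq_fintype_card (α := A), ← card_univ,
    ← c2, c1] at c3
  rw [c1, show (univ.filter fun b : A => b ∉ stabilizer A O.out).card =
    Nat.card (stabilizer A O.out) * (Nat.card (orbit A O.out) - 1) by
      rw [Nat.mul_sub_one, c3, Nat.add_sub_cancel_left], mul_assoc, ← mul_add, ← mul_assoc,
    mul_comm (Nat.card (K O.out))]
  exact Nat.mul_le_mul_right _ (ha _)

end Cfsg.Agent.H68.GbNumg
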