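import Cfsg.Agent.H45.GdDefs

/-! The final contradiction for mixed systems. -/

set_option autoImplicit false

namespace Cfsg.Agent.H68.GdEn

open Subgroup MulAction Cfsg.Agent.H11.Cy Cfsg.Agent.H45.Iv Cfsg.Agent.H45.Gd
open scoped commutatorElement

theorem en : EnStmt := by
  intro S ux cx G _ _ Ω _ _ p A h k yp h0 ani
  obtain ⟨d, -⟩ := h.bs.nt
  obtain ⟨Ψ, hΨ, hE, hd⟩ := h0 d
  obtain ⟨⟨z, hz⟩, z1⟩ := ne_bot_iff_exists_ne_one.1 hE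
  replace z1 : z ≠ 1 := fun e => z1 (Subtype.ext e)
  obtain ⟨b, hb⟩ := (Set.ne_univ_iff_exists_notMem _).1 hΨ.2.1
  obtain ⟨ne, r, hr, rz, kr⟩ := S G Ω p A h k Ψ hΨ z hz z1 b hb
  have rf : ∀ x y, x ≠ y → Rl A x y ≤ Fl A x y := fun x y e =>
    le_sup_left.trans (h.ls x y e).1.sup.le
  obtain ⟨-, lb, lc, -⟩ := h.ls b _ ne.symm
  have cz : ∀ u ∈ Rl A b (z • b), r * u = u * r → u * z = z * u := fun u hu e => by
    have e2 := kr u (rf _ _ ne.symm hu)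
    calc u * z = u * r * (r⁻¹ * z) := by group
      _ = r * (u * (r⁻¹ * z)) := by rw [← e, mul_assoc]
      _ = _ := by rw [e2]; group
  have pres := fun u hu e => k.cz Ψ hΨ z hz z1 u (cz u hu e)
  obtain ⟨s, hs, s1, s2, s3⟩ := h.big b _ ne.symm r hr rz
  obtain ⟨-, gb, ga⟩ := k.gd Ψ hΨ
  obtain ⟨u, hu, uz, ur, ua⟩ := ux G Ω p A h Ψ d hd (ga d hd) b _ ne.symm r hr s hs s1 rz s2 s3 pres
  have q1 := lb.sq u hu
  have q2 := ani b _ ne.symm u hu uz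
  obtain ⟨Φ, hΦ, hl⟩ := k.two b _ ne.symm
  have b1 := hl (h.sk.ln b (z • b)).1
  have b2 := hl (h.sk.ln b (z • b)).2
  have q3 := k.ze Φ hΦ b b1 _ b2 ne.symm q1
  have np : Ψ ≠ Φ := fun e => hb (e ▸ b1)
  have q4 := yp Ψ Φ hΨ hΦ np z hz z1 _ q3 q2 (by
    rw [← mul_assoc, ← cz u hu ur, mul_assoc, ← cz u hu ur, mul_assoc]) d hd
  obtain ⟨z0, -, c0, y, hy, yd, m2, n2⟩ := cx G Ω p A h ani Ψ hΨ.1 d hd (ga d hd) gb u (by
    rw [← lc.zsq _ q1]; simp only [pow_succ, pow_zero, one_mul, mul_assoc]) (pres u hu ur) ua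
    fun e => q4 ((k.fx Φ hΦ _ q3 q2 d).1 e)
  have e2 := k.ze Ψ hΨ d hd y hy yd.symm m2
  have uT := (h.sk.fle Φ b b1 _ b2).2 hu
  have t2 : (⁅u, z0⁆ : G) ∈ Ts A Φ := by
    have := mul_mem uT ((h.sk.nrm Φ z0 (k.cz Φ hΦ _ q3 q2 z0 c0)).2.1 _ (inv_mem uT))
    rwa [← mul_assoc, ← mul_assoc] at this
  obtain ⟨-, gb', ga'⟩ := k.gd Φ hΦ
  refine n2 (k.ti Ψ Φ hΨ hΦ np _ e2 ⟨t2, by_contra fun nc => ?_⟩)
  obtain ⟨y', hy', yb, r', hr', rz', c, hc, e⟩ := (ga' b b1).lin _ t2 nc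
  have cm := hc.2 r' ((h.sk.fle Φ b b1 y' hy').1 (rf _ _ yb.symm hr'))
  refine ani b y' yb.symm r' hr' rz' ?_
  have := gb _ e2
  rwa [e, mul_assoc, ← mul_assoc c, ← cm, mul_assoc, gb' c hc, mul_one] at this

end Cfsg.Agent.H68.GdEn
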