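import Cfsg.Agent.H97.JmDefs
import Cfsg.Agent.H33.J4Odd5
import Cfsg.Agent.S5629
import Cfsg.Agent.S5570
import Cfsg.Agent.S5574
import Cfsg.Agent.H26.SLBasic

/-! The three large 2-local subgroups. -/

set_option autoImplicit false

namespace Cfsg.Agent.H97.JM

open Subgroup

universe u

theorem X7.simple : IsSimpleGroup (Matrix.SpecialLinearGroup (Fin 5) (ZMod 2)) := by
  have h : center (Matrix.SpecialLinearGroup (Fin 5) (ZMod 2)) = ⊥ := eq_bot_iff.2 fun A hA => by
    obtain ⟨r, hr, hA⟩ := Matrix.SpecialLinearGroup.mem_center_iff.1 hA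
    have : r = 1 := by clear hA; revert r; decide
    exact Subtype.ext (by rw [← hA, this, map_one]; rfl)
  have := H26.psl_isSimpleGroup (ι := Fin 5) (F := ZMod 2) (Or.inl (by simp))
  exact ((QuotientGroup.quotientMulEquivOfEq h).trans QuotientGroup.quotientBot).symm.isSimpleGroup

theorem X7.card3 : Nat.card (Matrix.SpecialLinearGroup (Fin 3) (ZMod 2)) = 168 := by
  have := S0242.result (F := ZMod 2) (q := 2) (by simp) 3 (by norm_num)
  rw [show 2 - 1 = 1 from rfl, one_mul] at this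
  rw [this]; decide

theorem pX7 : X7.{u} := by
  intro G _ _ _ hG hJ
  have r7 : H33.J4O.R7 G := fun V h1 h2 => S5629.result hG _ hJ.choose_spec V h1 h2
  refine ⟨fun V h1 h2 => ?_, fun A h1 h2 h3 => ?_, ?_⟩
  · have := (normalizer (V : Set G)).card_mul_index
    rw [(r7 V h1 h2).1, (H33.J4O.card_hna hG hJ r7).1] at this
    omega
  · obtain ⟨⟨B, b1, b2, b3, ⟨e⟩⟩, w⟩ := (S5570.result hG hJ).2.2 A h1 h2 h3
    have := X7.simple
    exact ⟨B, fun a ha => by rw [← pow_two, h1.2 a ha], b1, b2, b3, e.isSimpleGroup,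
      by rw [Nat.card_congr e.toEquiv, H33.J4O.card_SL52], w⟩
  · obtain ⟨L, h1, h2, h3, ⟨e⟩, -, -, -, ⟨F, hF⟩, S, hS⟩ := S5574.result hG hJ
    refine ⟨L, F, S, h1, h2, h3, ?_, hF, hS⟩
    rw [card_eq_card_quotient_mul_card_subgroup (L.subgroupOf (normalizer (L : Set G))),
      Nat.card_congr e.toEquiv, Nat.card_congr (subgroupOfEquivOfLe le_normalizer).toEquiv, h2,
      Nat.card_prod, X7.card3, Nat.card_perm]
    simp [Nat.factorial]

end Cfsg.Agent.H97.JM
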