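import Cfsg.Agent.H75.KInvDefs
import Cfsg.Agent.H74.YtTwo

/-! Centralisers of involutions in the automorphism group of the Griess algebra. -/

set_option autoImplicit false

namespace Cfsg.Agent.H68.KI

open Subgroup Cfsg.Agent.H75.KI Cfsg.Agent.H97.Gr

theorem sporInv_griess : SporInv (Aut ℝ) := by
  refine SporInv.of_reps {tU, zA} (fun t ht => ?_) ?_
  · rcases H74.Mon.two_real t (by rw [← pow_two, ← ht, pow_orderOf_eq_one]) with e | e | e
    · rw [e] at ht; simp at ht
    · exact ⟨tU, .inl rfl, by rwa [DD_eq tU_mem] at e⟩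
    · exact ⟨zA, .inr rfl, e⟩
  · rintro _ (rfl | rfl)
    · have := isB_BB.1
      refine good_of_simple (S := BB) (fun h => ?_) pB (QuotientGroup.mk'_surjective _)
        (IsPGroup.of_card (n := 1) ?_)
      · obtain ⟨x, hx⟩ := exists_ne (1 : BB)
        exact hx (center_BB.le (mem_center_iff.2 fun y => h.is_comm.comm y x))
      · rw [QuotientGroup.ker_mk', Nat.card_congr
          (subgroupOfEquivOfLe (zpowers_le.2 tU_mem_KK)).toEquiv, Nat.card_zpowers, orderOf_DD tU_mem]
        rfl
    · obtain ⟨Q, θ, R, h, -⟩ := real_md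
      have h1 := h.hQ.le_centralizer
      have : (Q.subgroupOf (centralizer {zA})).Normal :=
        (normal_subgroupOf_iff_le_normalizer h1).2 h.hQ.nz
      refine .inl (charTwo_of_self (Q.subgroupOf _) (IsPGroup.of_card (n := 25) ?_) fun x hx => ?_)
      · rw [Nat.card_congr (subgroupOfEquivOfLe h1).toEquiv, h.card]
      · exact h.hQ.cQ fun y hy => congrArg Subtype.val (hx ⟨y, h1 hy⟩ hy)

end Cfsg.Agent.H68.KI
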