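import Cfsg.Agent.H89.L27Defs

/-! Vectors fixed by a subgroup `S₄` of `L₂(7)`. -/

set_option autoImplicit false
set_option maxRecDepth 100000

namespace Cfsg.Agent.H68.L27Fc

open Cfsg.Agent.H89.L27

theorem key {F W : Type} [Field F] [AddCommGroup W] [Module F W] {ρ : S7 →* Module.End F W}
    (h : NoFix ρ) {z : W} (a b c d e f : ℕ) (p1 p2 p3 p4 p5 p6 : S7) (h0 : ρ es z = z)
    (h1 : ρ p1 z = z) (h2 : ρ p2 z = z) (h3 : ρ p3 z = z) (h4 : ρ p4 z = z) (h5 : ρ p5 z = z)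
    (h6 : ρ p6 z = z) (e1 : es * ex ^ 1 = ex ^ a * p1 ∧ es * ex ^ 2 = ex ^ b * p2 ∧
      es * ex ^ 3 = ex ^ c * p3 ∧ es * ex ^ 4 = ex ^ d * p4 ∧ es * ex ^ 5 = ex ^ e * p5 ∧
      es * ex ^ 6 = ex ^ f * p6) (hp : [0, a, b, c, d, e, f].Perm (List.range 7)) :
    ∑ j ∈ Finset.range 7, (ρ ex ^ j) z = 0 := by
  have k : ∀ {i j : ℕ} {p : S7}, ρ p z = z → es * ex ^ i = ex ^ j * p →
      ρ es ((ρ ex ^ i) z) = (ρ ex ^ j) z := fun {i j p} hp e => by
    rw [← Module.End.mul_apply, ← map_pow, ← map_mul, e, map_mul, Module.End.mul_apply, hp, map_pow]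
  refine h.2 _ ?_ ?_
  · have r : ∑ j ∈ Finset.range 7, (ρ ex ^ j) z = ((List.range 7).map fun j => (ρ ex ^ j) z).sum := rfl
    conv_rhs => rw [r, ← (hp.map _).sum_eq]
    simp only [Finset.sum_range_succ, Finset.sum_range_zero, map_add, zero_add, List.map_cons,
      List.map_nil, List.sum_cons, List.sum_nil, add_zero]
    rw [k h1 e1.1, k h2 e1.2.1, k h3 e1.2.2.1, k h4 e1.2.2.2.1, k h5 e1.2.2.2.2.1, k h6 e1.2.2.2.2.2,
      pow_zero, Module.End.one_apply, h0]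
    abel
  · have e7 : ρ ex ^ 7 = 1 := by rw [← map_pow, show ex ^ 7 = 1 by decide +kernel, map_one]
    have := Finset.sum_range_succ' (fun j => (ρ ex ^ j) z) 7
    rw [Finset.sum_range_succ, e7, pow_zero, add_left_inj] at this
    conv_rhs => rw [this]
    simp only [map_sum, pow_succ', Module.End.mul_apply]

theorem fc : FcStmt := by
  intro F W _ _ _ _ ρ h z hy hs hv
  rcases hv with hv | hv
  · refine key h 1 6 3 5 4 2 (ev * ev * ey) (es * ev * ev * ey) (es * ey) (ev * es * ev)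
      (ev * ey * ey) (ey * ev) hs ?_ ?_ ?_ ?_ ?_ ?_ (by decide +kernel) (by decide) <;>
    simp only [map_mul, Module.End.mul_apply, hy, hs, hv]
  · refine key h 4 2 3 1 6 5 (eu * eu * ey) (ey * eu) (es * ey) (ey * eu * es * ey)
      (eu * ey * ey) (eu * es * ey * eu) hs ?_ ?_ ?_ ?_ ?_ ?_ (by decide +kernel) (by decide) <;>
    simp only [map_mul, Module.End.mul_apply, hy, hs, hv]

end Cfsg.Agent.H68.L27Fc
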