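import Cfsg.Agent.H11.CyLp

/-! The centraliser of an inverting involution. -/

set_option autoImplicit false

namespace Cfsg.Agent.H68.LpN2a

open Subgroup MulAction Cfsg.Agent.H11.Cy Cfsg.Agent.H11.Cy.Lp
open Cfsg.Agent.H11.EL (Nm Ct C1 cj Ex R1 SC OS WS CL2)

variable {G : Type} [Group G]

theorem ex_dvd [Finite G] {p : ℕ} (hp : p.Prime) {A : Subgroup G} (hA : Nat.card A = p) {g : G}
    {i j : ℤ} (hi : Ex g A i) (hj : Ex g A j) : (p : ℤ) ∣ i - j := by
  have : Fact p.Prime := ⟨hp⟩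
  obtain ⟨a, ha⟩ := exists_prime_orderOf_dvd_card' (G := A) p (by rw [hA])
  rw [← ha, ← Subgroup.orderOf_coe]
  exact orderOf_dvd_iff_zpow_eq_one.2 (by rw [zpow_sub, ← hi a a.2, ← hj a a.2, mul_inv_cancel])

theorem ex_mul {A : Subgroup G} {g h : G} {i j : ℤ} (hg : Ex g A i) (hh : Ex h A j) :
    Ex (g * h) A (i * j) := fun a ha => by
  calc g * h * a * (g * h)⁻¹ = g * (h * a * h⁻¹) * g⁻¹ := by group
    _ = (g * a * g⁻¹) ^ j := by rw [hh a ha, conj_zpow]
    _ = a ^ (i * j) := by rw [hg a ha, zpow_mul]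

theorem ex_one {A : Subgroup G} {g : G} : Ex g A 1 ↔ g ∈ Ct A :=
  ⟨fun h a ha => (mul_inv_eq_iff_eq_mul.1 ((h a ha).trans (zpow_one a))).symm,
    fun h a ha => by rw [← h a ha]; simp⟩

theorem half {y y' : G} (yy : y * y = 1) (yy' : y' * y' = 1) {r : ℕ}
    (kn : (y * y') ^ (2 * r + 1) = 1) :
    (y * y') ^ (r + 1) * y' * ((y * y') ^ (r + 1))⁻¹ = y := by
  have yi : y⁻¹ = y := inv_eq_of_mul_eq_one_right yy
  obtain ⟨k, hk⟩ : ∃ k, k = y * y' := ⟨_, rfl⟩
  rw [← hk] at kn ⊢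
  have e3 : y' = y * k := by rw [hk, ← mul_assoc, yy, one_mul]
  have e4 : y * k * y⁻¹ = k⁻¹ := by
    rw [yi, ← e3, hk, mul_inv_rev, yi, inv_eq_of_mul_eq_one_right yy']
  have e5 : y * k ^ (r + 1) * y⁻¹ = (k ^ (r + 1))⁻¹ := by rw [← conj_pow, e4, inv_pow]
  have e6 : k ^ (r + 1) * k ^ (r + 1) = k := by
    rw [← pow_add, show r + 1 + (r + 1) = 2 * r + 1 + 1 by ring, pow_succ, kn, one_mul]
  generalize k ^ (r + 1) = h at e5 e6
  have e7 : h * y = y * h⁻¹ := by
    rw [← e5, yi, ← mul_assoc, ← mul_assoc, yy, one_mul]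
  calc h * y' * h⁻¹ = h * y * k * h⁻¹ := by rw [e3]; group
    _ = y := by rw [e7, ← e6]; group

theorem n2a : N2aStmt := by
  intro G _ _ Ω _ _ p A h x y L t ht tt hx
  have p7 := L.p7
  have ep := L.mc.ep
  have kc : ∀ u v, Kl A u v ≤ Ct (A u) := fun u v =>
    centralizer_le (le_sup_left : A u ≤ A u ⊔ A v)
  have nc : ∀ u, Ex t (A u) (-1) → t ∉ Ct (A u) := fun u e c => by
    have := Int.le_of_dvd (by norm_num) (ex_dvd h.pp (h.card u) (ex_one.2 c) e)
    omega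
  have sm : ∀ u v, u ≠ v → ∀ g : G, g • u = u → g • v = v →
      g ∈ Kl A u v ∨ Ex g (A u) (-1) ∨ Big p g (A u) := fun u v e g a b => by
    obtain ⟨f, s, c⟩ := L.lc u v e
    exact (L.lt u v e f s c).small g ⟨a, b⟩
  have p1 : ∀ u, t • u = u → Ex t (A u) (-1) := fun u hu => by
    by_cases e : u = x
    · rwa [e]
    rcases sm u x e t hu ht.1 with c | c | ⟨i, c, hi⟩
    · exact absurd (centralizer_le (le_sup_right : A x ≤ A u ⊔ A x) c) (nc x hx)
    · exact c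
    · exact absurd (sq i ▸ ex_dvd h.pp (h.card u) (tt ▸ ex_mul c c) (ex_one.2 (one_mem _))) hi
  refine ⟨fun g hg => ?_, fun od => ⟨fun u hu v hv u' hu' v' hv' n1 n2 => ?_,
    fun g _ u hu v hv w hw uv vw uw gu gv gw => ?_⟩⟩
  · by_cases e : g • x = x
    · obtain ⟨i, hi, -⟩ := (L.la x y L.xy).ex g e
      have : Fact p.Prime := ⟨h.pp⟩
      have := (ZMod.intCast_zmod_eq_zero_iff_dvd _ p).2
        (ex_dvd h.pp (h.card x) (hg ▸ ex_mul hi hi) hx)
      refine ZMod.mod_four_ne_three_of_sq_eq_neg_one (y := (i : ZMod p)) ?_ L.p3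
      push_cast at this
      linear_combination this
    · obtain ⟨f, s, c⟩ := L.lc x _ (Ne.symm e)
      exact nc x hx (kc _ _ (hg ▸ (L.lt x _ (Ne.symm e) f s c).sq g rfl (by
        rw [← mul_smul, hg]; exact ht.1)))
  · obtain ⟨g, -, gu, gv⟩ := h.two u trivial v trivial u' trivial v' trivial n1 n2
    have fx : ∀ a : Ω, t • a = a → (g * t * g⁻¹) • g • a = g • a := fun a e => by
      rw [mul_smul, mul_smul, inv_smul_smul, e]
    have e1 : Ex (g * t * g⁻¹) (A u') (-1) := fun a ha => by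
      have := p1 u hu _ (by simpa [← gu] using h.eqv g⁻¹ u' a ha)
      calc g * t * g⁻¹ * a * (g * t * g⁻¹)⁻¹ = g * (t * (g⁻¹ * a * g) * t⁻¹) * g⁻¹ := by group
        _ = _ := by rw [this]; group
    have kC : t * (g * t * g⁻¹) ∈ Kl A u' v' := ep.eps u' v' n2 _
      (Subgroup.mul_mem (Hs G u' v') ⟨hu', hv'⟩ ⟨gu ▸ fx u hu, gv ▸ fx v hv⟩)
      (ex_one.1 (by simpa using ex_mul (p1 u' hu') e1))
    obtain ⟨r, hr⟩ := L.cK x y u' v' L.xy n2 ▸ od
    have kn : (t * (g * t * g⁻¹)) ^ (2 * r + 1) = 1 := by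
      have := pow_card_eq_one' (x := (⟨_, kC⟩ : Kl A u' v'))
      rw [hr] at this
      exact congrArg Subtype.val this
    have e8 := half tt (by rw [conj_mul, tt, mul_one, mul_inv_cancel]) kn
    have hC := (ep.kfix u' v' n2 _).1 (pow_mem kC (r + 1))
    generalize (t * (g * t * g⁻¹)) ^ (r + 1) = k at e8 hC
    refine ⟨k * g, mem_centralizer_singleton_iff.2 (mul_inv_eq_iff_eq_mul.1 ?_),
      by rw [mul_smul, gu, hC _ (L.la u' v' n2).mx], by rw [mul_smul, gv, hC _ (L.la u' v' n2).my]⟩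
    rw [← e8]; nth_rewrite 1 [e8]; group
  · have key : ∀ k ∈ Ct (A u), k • u = u → k • v = v → k • w = w → k = 1 := fun k c a b d => by
      by_contra k1
      have la := L.la u v uv
      exact nc u (p1 u hu) (kc _ _ (la.three t u la.mx v la.my w
        (L.ti p7 u v uv k (ep.eps u v uv k ⟨a, b⟩ c) k1 w d) uv vw uw hu hv hw))
    rcases sm u v uv g gu gv with c | c | c
    · rw [key g (kc _ _ c) gu gv gw]; exact one_mem _
    · have f : ∀ a : Ω, g • a = a → t • a = a → (g * t) • a = a := fun a e e' => by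
        rw [mul_smul, e', e]
      rw [eq_inv_of_mul_eq_one_left (key _ (ex_one.1 (by simpa using ex_mul c (p1 u hu)))
        (f u gu hu) (f v gv hv) (f w gw hw))]
      exact inv_mem (mem_zpowers t)
    · exact absurd (L.two u g gu c v w uv.symm uw.symm gv gw) vw

end Cfsg.Agent.H68.LpN2a
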