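import Cfsg.Agent.H42.VpDefs
import Cfsg.Agent.H12.Central
import Cfsg.Agent.H14.ExtraChar

set_option autoImplicit false

namespace Cfsg.Agent.H68.VpN

open Subgroup Cfsg Cfsg.Agent.H42.Vp

universe u

theorem tr_mul (f g : (Fin 1 → ℂ) →ₗ[ℂ] (Fin 1 → ℂ)) :
    LinearMap.trace ℂ _ (f * g) = LinearMap.trace ℂ _ f * LinearMap.trace ℂ _ g := by
  simp only [LinearMap.trace_eq_matrix_trace ℂ (Pi.basisFun ℂ (Fin 1)), LinearMap.toMatrix_mul,
    Matrix.trace_fin_one, Matrix.mul_apply, Fin.sum_univ_one]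

theorem lin {G : Type u} [Group G] {χ : G → ℂ} (hχ : IsIrrCharacter G χ) (h : χ 1 = 1) (a b : G) :
    χ (a * b) = χ a * χ b := by
  obtain ⟨n, ρ, -, rfl⟩ := hχ
  rw [ρ.char_one] at h
  have : n = 1 := by simpa using h
  subst this
  simp only [Representation.character, map_mul, tr_mul]

theorem n : NStmt.{u} := by
  intro G _ _ hG
  by_contra h
  push Not at h
  have one : ∀ χ, IsIrrCharacter G χ → χ 1 = 1 := by
    intro χ hχ
    by_contra h1
    obtain ⟨g, hg⟩ := H12.irr_exists_eq_zero hχ h1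
    have c := h g ⟨χ, hχ, hg⟩
    have := H11.apply_mul_of_mem_charCenter (H11.irr_apply_one_ne_zero hχ)
      (H11.center_le_charCenter hχ c) g⁻¹
    rw [mul_inv_cancel, hg] at this
    exact H11.irr_apply_one_ne_zero hχ (by simpa using this)
  refine hG ⟨⟨fun a b => ?_⟩⟩
  have : a * b * (b * a)⁻¹ = 1 := H11.eq_one_of_forall_irr fun χ hχ => by
    have e := lin hχ (one χ hχ)
    rw [e, e a b, mul_comm (χ a), ← e, ← e, mul_inv_cancel]
  exact mul_inv_eq_one.1 this

end Cfsg.Agent.H68.VpN
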